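import Mathlib
import Cfsg.Prelude.Def_Solvable

set_option autoImplicit false

/-!
Package statements for S2553 (subgroups of `GL₄(2) ≅ A₈` with trivial cores).  Each package is a
`Prop`; a proof of a package is a theorem of that type (no hypotheses).
-/

namespace Cfsg.Agent.Lib.Helper98.A8

/-- [SOLV] A nontrivial finite solvable group has a nontrivial `2`-core or a nontrivial odd
core. -/
def PkgSolv : Prop :=
  ∀ (G : Type) [Group G] [Finite G] [Group.IsSolvable G] [Nontrivial G],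
    Cfsg.pCore 2 G ≠ ⊥ ∨ Cfsg.pPrimeCore 2 G ≠ ⊥

/-- [TRANS] `GL₄(2)` embeds in the alternating group of degree eight. -/
def PkgTrans : Prop :=
  ∃ ψ : GL (Fin 4) (ZMod 2) →* Equiv.Perm (Fin 8), Function.Injective ψ ∧
    ∀ x, ψ x ∈ alternatingGroup (Fin 8)

/-- [BURN] A group of permutations of eight points whose order is prime to `5` and `7` is
solvable. -/
def PkgBurn : Prop :=
  ∀ H : Subgroup (Equiv.Perm (Fin 8)), ¬ 5 ∣ Nat.card H → ¬ 7 ∣ Nat.card H → Group.IsSolvable H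

/-- [L32] A simple group of order `168` is `GL₃(2)`. -/
def PkgL32 : Prop :=
  ∀ (K : Type) [Group K] [Finite K] [IsSimpleGroup K], Nat.card K = 168 →
    Nonempty (K ≃* GL (Fin 3) (ZMod 2))

/-- [CYC] If `p ∈ {5, 7}` divides the order of a group `H` of permutations of eight points, then
every permutation of order `p` has a conjugate in `H`. -/
def PkgCyc : Prop :=
  ∀ (H : Subgroup (Equiv.Perm (Fin 8))) (p : ℕ), (p = 5 ∨ p = 7) → p ∣ Nat.card H →
    ∀ g : Equiv.Perm (Fin 8), orderOf g = p → ∃ c : Equiv.Perm (Fin 8), c * g * c⁻¹ ∈ H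

/-- [INV] A set of commuting involutions, not all trivial, inside the group generated by `S`
and invariant under conjugation by the elements of `S` and their inverses, gives a nontrivial
`2`-core. -/
def PkgInv : Prop :=
  ∀ (S T : Set (Equiv.Perm (Fin 8))),
    (∃ t ∈ T, t ≠ 1) → (∀ t ∈ T, t ∈ Subgroup.closure S) → (∀ t ∈ T, t * t = 1) →
    (∀ s ∈ T, ∀ t ∈ T, s * t = t * s) →
    (∀ g ∈ S, ∀ t ∈ T, g * t * g⁻¹ ∈ T ∧ g⁻¹ * t * g ∈ T) →
    Cfsg.pCore 2 ↥(Subgroup.closure S) ≠ ⊥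

/-- [ODD] An element of odd prime order generating a normal subgroup gives a nontrivial odd
core. -/
def PkgOdd : Prop :=
  ∀ (H : Subgroup (Equiv.Perm (Fin 8))) (c : Equiv.Perm (Fin 8)) (p : ℕ), p.Prime → p ≠ 2 →
    orderOf c = p → c ∈ H → (∀ h ∈ H, h * c * h⁻¹ ∈ Subgroup.zpowers c) →
    Cfsg.pPrimeCore 2 ↥H ≠ ⊥

/-- [ODDG] The same for the group generated by `S`, normality being checked on the generators
and their inverses. -/
def PkgOddG : Prop :=
  ∀ (S : Set (Equiv.Perm (Fin 8))) (c : Equiv.Perm (Fin 8)) (p : ℕ), p.Prime → p ≠ 2 →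
    orderOf c = p → c ∈ Subgroup.closure S →
    (∀ g ∈ S, g * c * g⁻¹ ∈ Subgroup.zpowers c ∧ g⁻¹ * c * g ∈ Subgroup.zpowers c) →
    Cfsg.pPrimeCore 2 ↥(Subgroup.closure S) ≠ ⊥

/-- [SIMP] A simplicity criterion for the group generated by `S`: every subgroup which meets it
nontrivially and is stable under conjugation by it contains `S`. -/
def PkgSimp : Prop :=
  ∀ (S : Set (Equiv.Perm (Fin 8))), (∃ g ∈ S, g ≠ 1) →
    (∀ N : Subgroup (Equiv.Perm (Fin 8)), (∃ x ∈ N, x ∈ Subgroup.closure S ∧ x ≠ 1) →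
      (∀ k ∈ Subgroup.closure S, ∀ n ∈ N, k * n * k⁻¹ ∈ N) → ∀ g ∈ S, g ∈ N) →
    IsSimpleGroup ↥(Subgroup.closure S)

/-- [ACT] A permutation action restricted to an invariant finite set on which the group acts
faithfully gives an injective homomorphism. -/
def PkgAct : Prop :=
  ∀ (K : Subgroup (Equiv.Perm (Fin 8))) (α : Type) [Fintype α] [DecidableEq α]
    (φ : Equiv.Perm (Fin 8) →* Equiv.Perm α) (X : Finset α),
    (∀ k ∈ K, ∀ x ∈ X, φ k x ∈ X) → (∀ k ∈ K, (∀ x ∈ X, φ k x = x) → k = 1) →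
    ∃ f : ↥K →* Equiv.Perm ↥X, Function.Injective f

end Cfsg.Agent.Lib.Helper98.A8
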