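import Mathlib

set_option autoImplicit false

/-!
Permutations of eight points coded by natural numbers (base eight digits), with a
multiplication on codes that the kernel can evaluate quickly.
-/

namespace Cfsg.Agent.Lib.Helper98.A8

/-- Permutations of eight points. -/
abbrev Pm := Equiv.Perm (Fin 8)

/-- The `i`-th base eight digit. -/
def dg (c i : ℕ) : ℕ := c / 8 ^ i % 8

theorem dg_lt (c i : ℕ) : dg c i < 8 := Nat.mod_lt _ (by norm_num)

/-- Product of codes. -/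
def mulc (a b : ℕ) : ℕ :=
  dg a (dg b 0) + 8 * dg a (dg b 1) + 64 * dg a (dg b 2) + 512 * dg a (dg b 3)
    + 4096 * dg a (dg b 4) + 32768 * dg a (dg b 5) + 262144 * dg a (dg b 6)
    + 2097152 * dg a (dg b 7)

/-- The code of a permutation. -/
def enc (σ : Pm) : ℕ :=
  (σ 0 : ℕ) + 8 * (σ 1 : ℕ) + 64 * (σ 2 : ℕ) + 512 * (σ 3 : ℕ) + 4096 * (σ 4 : ℕ)
    + 32768 * (σ 5 : ℕ) + 262144 * (σ 6 : ℕ) + 2097152 * (σ 7 : ℕ)

/-- The code of the identity. -/
def idc : ℕ := 16434824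

theorem dg_sum (d0 d1 d2 d3 d4 d5 d6 d7 : ℕ) (h0 : d0 < 8) (h1 : d1 < 8) (h2 : d2 < 8)
    (h3 : d3 < 8) (h4 : d4 < 8) (h5 : d5 < 8) (h6 : d6 < 8) (h7 : d7 < 8) :
    dg (d0 + 8 * d1 + 64 * d2 + 512 * d3 + 4096 * d4 + 32768 * d5 + 262144 * d6
      + 2097152 * d7) 0 = d0 ∧
    dg (d0 + 8 * d1 + 64 * d2 + 512 * d3 + 4096 * d4 + 32768 * d5 + 262144 * d6
      + 2097152 * d7) 1 = d1 ∧
    dg (d0 + 8 * d1 + 64 * d2 + 512 * d3 + 4096 * d4 + 32768 * d5 + 262144 * d6
      + 2097152 * d7) 2 = d2 ∧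
    dg (d0 + 8 * d1 + 64 * d2 + 512 * d3 + 4096 * d4 + 32768 * d5 + 262144 * d6
      + 2097152 * d7) 3 = d3 ∧
    dg (d0 + 8 * d1 + 64 * d2 + 512 * d3 + 4096 * d4 + 32768 * d5 + 262144 * d6
      + 2097152 * d7) 4 = d4 ∧
    dg (d0 + 8 * d1 + 64 * d2 + 512 * d3 + 4096 * d4 + 32768 * d5 + 262144 * d6
      + 2097152 * d7) 5 = d5 ∧
    dg (d0 + 8 * d1 + 64 * d2 + 512 * d3 + 4096 * d4 + 32768 * d5 + 262144 * d6
      + 2097152 * d7) 6 = d6 ∧
    dg (d0 + 8 * d1 + 64 * d2 + 512 * d3 + 4096 * d4 + 32768 * d5 + 262144 * d6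
      + 2097152 * d7) 7 = d7 := by
  unfold dg
  norm_num
  refine ⟨?_, ?_, ?_, ?_, ?_, ?_, ?_, ?_⟩ <;> omega

theorem dg_enc (σ : Pm) (i : Fin 8) : dg (enc σ) (i : ℕ) = (σ i : ℕ) := by
  obtain ⟨h0, h1, h2, h3, h4, h5, h6, h7⟩ := dg_sum (σ 0) (σ 1) (σ 2) (σ 3) (σ 4) (σ 5) (σ 6)
    (σ 7) (σ 0).isLt (σ 1).isLt (σ 2).isLt (σ 3).isLt (σ 4).isLt (σ 5).isLt (σ 6).isLt (σ 7).isLt
  unfold enc
  fin_cases i
  · exact h0
  · exact h1
  · exact h2
  · exact h3
  · exact h4
  · exact h5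
  · exact h6
  · exact h7

theorem dg_mulc (a b i : ℕ) (hi : i < 8) : dg (mulc a b) i = dg a (dg b i) := by
  obtain ⟨h0, h1, h2, h3, h4, h5, h6, h7⟩ := dg_sum (dg a (dg b 0)) (dg a (dg b 1))
    (dg a (dg b 2)) (dg a (dg b 3)) (dg a (dg b 4)) (dg a (dg b 5)) (dg a (dg b 6))
    (dg a (dg b 7)) (dg_lt _ _) (dg_lt _ _) (dg_lt _ _) (dg_lt _ _) (dg_lt _ _) (dg_lt _ _)
    (dg_lt _ _) (dg_lt _ _)
  unfold mulc
  interval_cases i
  · exact h0
  · exact h1
  · exact h2
  · exact h3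
  · exact h4
  · exact h5
  · exact h6
  · exact h7

theorem enc_mul (σ τ : Pm) : enc (σ * τ) = mulc (enc σ) (enc τ) := by
  have h : ∀ i : Fin 8, dg (enc σ) (dg (enc τ) (i : ℕ)) = ((σ * τ) i : ℕ) := by
    intro i
    rw [dg_enc τ i, dg_enc σ (τ i)]
    rfl
  have e0 := h 0
  have e1 := h 1
  have e2 := h 2
  have e3 := h 3
  have e4 := h 4
  have e5 := h 5
  have e6 := h 6
  have e7 := h 7
  simp only [Fin.val_zero, Fin.val_one, Fin.val_two, Fin.isValue] at e0 e1 e2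
  change dg (enc σ) (dg (enc τ) 3) = _ at e3
  change dg (enc σ) (dg (enc τ) 4) = _ at e4
  change dg (enc σ) (dg (enc τ) 5) = _ at e5
  change dg (enc σ) (dg (enc τ) 6) = _ at e6
  change dg (enc σ) (dg (enc τ) 7) = _ at e7
  unfold mulc
  rw [e0, e1, e2, e3, e4, e5, e6, e7]
  rfl

theorem enc_injective : Function.Injective enc := by
  intro σ τ h
  ext i
  rw [← dg_enc σ i, ← dg_enc τ i, h]

theorem enc_one : enc 1 = idc := by
  simp [enc, idc]

theorem enc_lt (σ : Pm) : enc σ < 16777216 := by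
  unfold enc
  have h0 := (σ 0).isLt
  have h1 := (σ 1).isLt
  have h2 := (σ 2).isLt
  have h3 := (σ 3).isLt
  have h4 := (σ 4).isLt
  have h5 := (σ 5).isLt
  have h6 := (σ 6).isLt
  have h7 := (σ 7).isLt
  omega

/-- Codes of permutations. -/
def Valid (c : ℕ) : Prop := ∃ σ : Pm, enc σ = c

open Classical in
/-- The permutation with a given code. -/
noncomputable def pm (c : ℕ) : Pm := if h : Valid c then h.choose else 1

theorem pm_enc (σ : Pm) : pm (enc σ) = σ := by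
  have h : Valid (enc σ) := ⟨σ, rfl⟩
  unfold pm
  rw [dif_pos h]
  exact enc_injective h.choose_spec

theorem enc_pm {c : ℕ} (h : Valid c) : enc (pm c) = c := by
  obtain ⟨σ, rfl⟩ := h
  rw [pm_enc]

theorem valid_enc (σ : Pm) : Valid (enc σ) := ⟨σ, rfl⟩

theorem valid_mulc {a b : ℕ} (ha : Valid a) (hb : Valid b) : Valid (mulc a b) := by
  obtain ⟨σ, rfl⟩ := ha
  obtain ⟨τ, rfl⟩ := hb
  exact ⟨σ * τ, enc_mul σ τ⟩

theorem pm_mulc {a b : ℕ} (ha : Valid a) (hb : Valid b) : pm (mulc a b) = pm a * pm b := by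
  obtain ⟨σ, rfl⟩ := ha
  obtain ⟨τ, rfl⟩ := hb
  rw [← enc_mul, pm_enc, pm_enc, pm_enc]

theorem valid_idc : Valid idc := ⟨1, enc_one⟩

theorem pm_idc : pm idc = 1 := by rw [← enc_one, pm_enc]

theorem eq_pm_of_enc {σ : Pm} {c : ℕ} (h : enc σ = c) : σ = pm c := by
  rw [← h, pm_enc]

theorem digits_sum (c : ℕ) (h : c < 16777216) :
    dg c 0 + 8 * dg c 1 + 64 * dg c 2 + 512 * dg c 3 + 4096 * dg c 4 + 32768 * dg c 5
      + 262144 * dg c 6 + 2097152 * dg c 7 = c := by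
  unfold dg
  norm_num
  omega

theorem dg_idc (i : ℕ) (hi : i < 8) : dg idc i = i := by
  interval_cases i <;> rfl

theorem valid_of_inv (c d : ℕ) (h1 : mulc c d = idc) (h2 : mulc d c = idc)
    (hlt : c < 16777216) : Valid c := by
  have hl : ∀ i : Fin 8, dg d (dg c i) = i := by
    intro i
    rw [← dg_mulc d c i i.isLt, h2, dg_idc i i.isLt]
  have hr : ∀ i : Fin 8, dg c (dg d i) = i := by
    intro i
    rw [← dg_mulc c d i i.isLt, h1, dg_idc i i.isLt]
  let σ : Pm :=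
    { toFun := fun i => ⟨dg c i, dg_lt _ _⟩
      invFun := fun i => ⟨dg d i, dg_lt _ _⟩
      left_inv := fun i => Fin.ext (hl i)
      right_inv := fun i => Fin.ext (hr i) }
  refine ⟨σ, ?_⟩
  have := digits_sum c hlt
  exact this

/-- The `i`-th digit, in a form which the kernel evaluates quickly. -/
def dr (c i : ℕ) : ℕ := Nat.mod (Nat.div c (Nat.pow 8 i)) 8

/-- Product of codes, in a form which the kernel evaluates quickly. -/
def mulr (a b : ℕ) : ℕ :=
  Nat.add (Nat.add (Nat.add (Nat.add (Nat.add (Nat.add (Nat.add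
    (dr a (dr b 0))
    (Nat.mul 8 (dr a (dr b 1))))
    (Nat.mul 64 (dr a (dr b 2))))
    (Nat.mul 512 (dr a (dr b 3))))
    (Nat.mul 4096 (dr a (dr b 4))))
    (Nat.mul 32768 (dr a (dr b 5))))
    (Nat.mul 262144 (dr a (dr b 6))))
    (Nat.mul 2097152 (dr a (dr b 7)))

theorem mulr_eq (a b : ℕ) : mulr a b = mulc a b := rfl

/-- Read the `k`-th slot of width `w` of a packed number. -/
def accr (S w k : ℕ) : ℕ :=
  Nat.land (Nat.shiftRight S (Nat.mul w k)) (Nat.sub (Nat.pow 2 w) 1)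

/-- Read the `k`-th slot of a table stored in chunks of 252 slots. -/
def accL (L : List ℕ) (w k : ℕ) : ℕ := accr (L.getD (Nat.div k 252) 0) w (Nat.mod k 252)

/-- Read a bit field. -/
def fld (e off w : ℕ) : ℕ := Nat.land (Nat.shiftRight e off) (Nat.sub (Nat.pow 2 w) 1)

/-- A bounded universal quantifier which the kernel evaluates. -/
def allB : ℕ → (ℕ → Bool) → Bool
  | 0, _ => true
  | n + 1, f => f n && allB n f

theorem allB_spec {n : ℕ} {f : ℕ → Bool} (h : allB n f = true) : ∀ k < n, f k = true := by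
  induction n with
  | zero => intro k hk; omega
  | succ n ih =>
    intro k hk
    rw [allB, Bool.and_eq_true] at h
    rcases Nat.lt_succ_iff_lt_or_eq.mp hk with hk' | rfl
    · exact ih h.2 k hk'
    · exact h.1

/-- Run through two chunked tables in parallel. -/
def allC2 : List ℕ → List ℕ → ℕ → ℕ → ℕ → (ℕ → ℕ → ℕ → Bool) → Bool
  | c :: cs, d :: ds, w1, w2, off, f =>
    allB 252 (fun j => f (Nat.add off j) (accr c w1 j) (accr d w2 j))
      && allC2 cs ds w1 w2 (Nat.add off 252) f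
  | _, _, _, _, _, _ => true

theorem allC2_spec (L1 L2 : List ℕ) (w1 w2 off : ℕ) (f : ℕ → ℕ → ℕ → Bool)
    (h : allC2 L1 L2 w1 w2 off f = true) (q j : ℕ) (hq1 : q < L1.length) (hq2 : q < L2.length)
    (hj : j < 252) :
    f (off + 252 * q + j) (accr (L1.getD q 0) w1 j) (accr (L2.getD q 0) w2 j) = true := by
  induction L1 generalizing L2 off q with
  | nil => simp at hq1
  | cons c cs ih =>
    cases L2 with
    | nil => simp at hq2
    | cons d ds =>
      rw [allC2, Bool.and_eq_true] at h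
      cases q with
      | zero =>
        have := allB_spec h.1 j hj
        simpa using this
      | succ q =>
        have h2 := ih ds (Nat.add off 252) h.2 q (by simpa using hq1) (by simpa using hq2)
        have e : off + 252 * (q + 1) + j = Nat.add off 252 + 252 * q + j := by
          show off + 252 * (q + 1) + j = off + 252 + 252 * q + j
          ring
        rw [e]
        simpa using h2

theorem allC2_spec' (L1 L2 : List ℕ) (w1 w2 : ℕ) (f : ℕ → ℕ → ℕ → Bool)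
    (h : allC2 L1 L2 w1 w2 0 f = true) (k : ℕ) (hk1 : k < 252 * L1.length)
    (hk2 : k < 252 * L2.length) :
    f k (accL L1 w1 k) (accL L2 w2 k) = true := by
  have hq1 : k / 252 < L1.length := by
    rw [Nat.div_lt_iff_lt_mul (by norm_num)]; omega
  have hq2 : k / 252 < L2.length := by
    rw [Nat.div_lt_iff_lt_mul (by norm_num)]; omega
  have := allC2_spec L1 L2 w1 w2 0 f h (k / 252) (k % 252) hq1 hq2 (Nat.mod_lt _ (by norm_num))
  have e : 0 + 252 * (k / 252) + k % 252 = k := by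
    have := Nat.div_add_mod k 252
    omega
  rw [e] at this
  exact this

end Cfsg.Agent.Lib.Helper98.A8
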