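import Mathlib
import Cfsg.Agent.Lib.Helper98.A8.Enc

set_option autoImplicit false

/-!
A table of all permutations of eight points (the even ones first), checked by closing it under
right multiplication by a full cycle and a transposition.
-/

namespace Cfsg.Agent.Lib.Helper98.A8

open Equiv

/-- Code of the rotation. -/
def rhoc : ℕ := 2054353

/-- Code of the transposition of `0` and `1`. -/
def tauc : ℕ := 16434817

theorem enc_rho : enc (finRotate 8) = rhoc := by
  decide

theorem enc_tau : enc (swap (0 : Fin 8) 1) = tauc := by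
  decide

/-- The check on the table of all permutations. -/
def chkS (S NX : List ℕ) (i0 : ℕ) : Bool :=
  Nat.blt i0 20160 && Nat.beq (accL S 24 i0) idc &&
  allC2 S NX 24 32 0 (fun k y e =>
    Nat.blt (fld e 0 16) 40320 && Nat.blt (fld e 16 16) 40320 &&
    Nat.beq (accL S 24 (fld e 0 16)) (mulr y rhoc) &&
    Nat.beq (accL S 24 (fld e 16 16)) (mulr y tauc) &&
    (Nat.blt k 20160 != Nat.blt (fld e 0 16) 20160) &&
    (Nat.blt k 20160 != Nat.blt (fld e 16 16) 20160))

theorem blt_ne_iff (a b c d : ℕ) (h : (Nat.blt a b != Nat.blt c d) = true) :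
    (a < b ↔ ¬ c < d) := by
  have h1 : Nat.blt a b = true ↔ a < b := by simp
  have h2 : Nat.blt c d = true ↔ c < d := by simp
  cases hx : Nat.blt a b <;> cases hy : Nat.blt c d <;> rw [hx, hy] at h <;>
    simp_all

theorem closure_rho_tau :
    Subgroup.closure ({finRotate 8, swap (0 : Fin 8) 1} : Set Pm) = ⊤ := by
  have h := Equiv.Perm.closure_cycle_adjacent_swap (σ := finRotate 8)
    (isCycle_finRotate (n := 6)) (support_finRotate (n := 6)) (0 : Fin 8)
  have e : (finRotate 8) (0 : Fin 8) = 1 := by decide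
  rw [e] at h
  exact h

theorem sign_rho : Equiv.Perm.sign (finRotate 8) = -1 := by
  have h := sign_finRotate 8
  rw [h]
  decide

theorem S_complete (S NX : List ℕ) (i0 : ℕ) (hl1 : S.length = 160) (hl2 : NX.length = 160)
    (h : chkS S NX i0 = true) (σ : Pm) :
    ∃ k, k < 40320 ∧ accL S 24 k = enc σ ∧ (k < 20160 ↔ Equiv.Perm.sign σ = 1) := by
  unfold chkS at h
  rw [Bool.and_eq_true, Bool.and_eq_true] at h
  obtain ⟨⟨h0, h1⟩, h2⟩ := h
  have h0' : i0 < 20160 := by simpa using h0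
  have h1' : accL S 24 i0 = idc := by simpa using h1
  have hstep : ∀ k, k < 40320 →
      (fld (accL NX 32 k) 0 16 < 40320 ∧ fld (accL NX 32 k) 16 16 < 40320 ∧
        accL S 24 (fld (accL NX 32 k) 0 16) = mulc (accL S 24 k) rhoc ∧
        accL S 24 (fld (accL NX 32 k) 16 16) = mulc (accL S 24 k) tauc ∧
        ((k < 20160) ↔ ¬ (fld (accL NX 32 k) 0 16 < 20160)) ∧
        ((k < 20160) ↔ ¬ (fld (accL NX 32 k) 16 16 < 20160))) := by
    intro k hk
    have := allC2_spec' S NX 24 32 _ h2 k (by rw [hl1]; omega) (by rw [hl2]; omega)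
    simp only [Bool.and_eq_true] at this
    obtain ⟨⟨⟨⟨⟨a1, a2⟩, a3⟩, a4⟩, a5⟩, a6⟩ := this
    refine ⟨by simpa using a1, by simpa using a2, ?_, ?_, blt_ne_iff _ _ _ _ a5,
      blt_ne_iff _ _ _ _ a6⟩
    · rw [← mulr_eq]; exact Nat.eq_of_beq_eq_true a3
    · rw [← mulr_eq]; exact Nat.eq_of_beq_eq_true a4
  have Q1 : ∃ k, k < 40320 ∧ accL S 24 k = enc (1 : Pm) ∧
      (k < 20160 ↔ Equiv.Perm.sign (1 : Pm) = 1) :=
    ⟨i0, by omega, by rw [h1', enc_one], by simp [h0']⟩
  have hgen : ∀ γ : Pm, (enc γ = rhoc ∨ enc γ = tauc) → Equiv.Perm.sign γ = -1 →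
      ∀ π : Pm, (∃ k, k < 40320 ∧ accL S 24 k = enc π ∧ (k < 20160 ↔ Equiv.Perm.sign π = 1)) →
      ∃ k, k < 40320 ∧ accL S 24 k = enc (π * γ) ∧
        (k < 20160 ↔ Equiv.Perm.sign (π * γ) = 1) := by
    intro γ hγ hs π ⟨k, hk, hkπ, hpar⟩
    obtain ⟨b1, b2, b3, b4, b5, b6⟩ := hstep k hk
    have hsg : Equiv.Perm.sign (π * γ) = 1 ↔ ¬ (Equiv.Perm.sign π = 1) := by
      rw [Equiv.Perm.sign_mul, hs]
      rcases Int.units_eq_one_or (Equiv.Perm.sign π) with h | h <;> rw [h] <;> decide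
    rcases hγ with hγ | hγ
    · refine ⟨fld (accL NX 32 k) 0 16, b1, ?_, ?_⟩
      · rw [b3, hkπ, enc_mul, hγ]
      · rw [hsg, ← hpar]
        constructor
        · intro h1 h2; exact (b5.mp h2) h1
        · intro h1; by_contra h2; exact h1 (b5.mpr h2)
    · refine ⟨fld (accL NX 32 k) 16 16, b2, ?_, ?_⟩
      · rw [b4, hkπ, enc_mul, hγ]
      · rw [hsg, ← hpar]
        constructor
        · intro h1 h2; exact (b6.mp h2) h1
        · intro h1; by_contra h2; exact h1 (b6.mpr h2)
  have key : ∀ γ : Pm, γ ∈ Subgroup.closure ({finRotate 8, swap (0 : Fin 8) 1} : Set Pm) →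
      ∀ π : Pm, (∃ k, k < 40320 ∧ accL S 24 k = enc π ∧ (k < 20160 ↔ Equiv.Perm.sign π = 1)) →
      ∃ k, k < 40320 ∧ accL S 24 k = enc (π * γ) ∧
        (k < 20160 ↔ Equiv.Perm.sign (π * γ) = 1) := by
    intro γ hγ
    refine Subgroup.closure_induction (p := fun γ _ => ∀ π : Pm,
      (∃ k, k < 40320 ∧ accL S 24 k = enc π ∧ (k < 20160 ↔ Equiv.Perm.sign π = 1)) →
      ∃ k, k < 40320 ∧ accL S 24 k = enc (π * γ) ∧
        (k < 20160 ↔ Equiv.Perm.sign (π * γ) = 1)) ?_ ?_ ?_ ?_ hγ
    · intro x hx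
      rcases hx with rfl | hx
      · exact hgen _ (Or.inl enc_rho) sign_rho
      · rw [Set.mem_singleton_iff] at hx
        subst hx
        exact hgen _ (Or.inr enc_tau) (Equiv.Perm.sign_swap (by decide))
    · intro π hπ
      simpa using hπ
    · intro x y _ _ hx hy π hπ
      rw [← mul_assoc]
      exact hy _ (hx _ hπ)
    · intro x _ hx π hπ
      have hpow : ∀ j : ℕ, ∃ k, k < 40320 ∧ accL S 24 k = enc (π * x ^ j) ∧
          (k < 20160 ↔ Equiv.Perm.sign (π * x ^ j) = 1) := by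
        intro j
        induction j with
        | zero => simpa using hπ
        | succ j ih =>
          rw [pow_succ, ← mul_assoc]
          exact hx _ ih
      have hinv : x⁻¹ = x ^ (orderOf x - 1) := by
        apply inv_eq_of_mul_eq_one_left
        rw [← pow_succ, Nat.sub_add_cancel (orderOf_pos x), pow_orderOf_eq_one]
      rw [hinv]
      exact hpow _
  have hσ : σ ∈ Subgroup.closure ({finRotate 8, swap (0 : Fin 8) 1} : Set Pm) := by
    rw [closure_rho_tau]; trivial
  have := key σ hσ 1 Q1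
  simpa using this

end Cfsg.Agent.Lib.Helper98.A8
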