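import Mathlib
import Cfsg.Prelude.Def_Solvable
import Cfsg.Agent.Lib.Helper98.A8.Sym

set_option autoImplicit false

/-!
The conclusion `Good` (a nontrivial core, or one of the listed isomorphism types), its transport
along isomorphisms, and the basic closure facts for groups generated by coded permutations.
-/

namespace Cfsg.Agent.Lib.Helper98.A8

open Equiv

/-- The conclusion: a nontrivial `2`-core or odd core, or one of the listed groups. -/
def Good (K : Type) [Group K] : Prop :=
  Cfsg.pCore 2 K ≠ ⊥ ∨ Cfsg.pPrimeCore 2 K ≠ ⊥ ∨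
  (∃ n : ℕ, 5 ≤ n ∧ n ≤ 8 ∧ Nonempty (K ≃* alternatingGroup (Fin n))) ∨
  Nonempty (K ≃* Equiv.Perm (Fin 5)) ∨ Nonempty (K ≃* Equiv.Perm (Fin 6)) ∨
  Nonempty (K ≃* GL (Fin 3) (ZMod 2))

theorem pCore_ne_bot_of {K : Type} [Group K] (N : Subgroup K) (hn : N.Normal)
    (hp : IsPGroup 2 N) (hne : N ≠ ⊥) : Cfsg.pCore 2 K ≠ ⊥ := by
  intro h
  apply hne
  have : N ≤ Cfsg.pCore 2 K := le_sSup ⟨hn, hp⟩
  rw [h] at this
  exact le_bot_iff.mp this

theorem pPrimeCore_ne_bot_of {K : Type} [Group K] (N : Subgroup K) (hn : N.Normal)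
    (hp : (Nat.card N).Coprime 2) (hne : N ≠ ⊥) : Cfsg.pPrimeCore 2 K ≠ ⊥ := by
  intro h
  apply hne
  have : N ≤ Cfsg.pPrimeCore 2 K := le_sSup ⟨hn, hp⟩
  rw [h] at this
  exact le_bot_iff.mp this

theorem exists_of_pCore_ne_bot {K : Type} [Group K] (h : Cfsg.pCore 2 K ≠ ⊥) :
    ∃ N : Subgroup K, N.Normal ∧ IsPGroup 2 N ∧ N ≠ ⊥ := by
  by_contra hc
  apply h
  apply le_bot_iff.mp
  apply sSup_le
  rintro N ⟨hn, hp⟩
  by_contra hN
  exact hc ⟨N, hn, hp, fun e => hN (e ▸ le_refl _)⟩

theorem exists_of_pPrimeCore_ne_bot {K : Type} [Group K] (h : Cfsg.pPrimeCore 2 K ≠ ⊥) :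
    ∃ N : Subgroup K, N.Normal ∧ (Nat.card N).Coprime 2 ∧ N ≠ ⊥ := by
  by_contra hc
  apply h
  apply le_bot_iff.mp
  apply sSup_le
  rintro N ⟨hn, hp⟩
  by_contra hN
  exact hc ⟨N, hn, hp, fun e => hN (e ▸ le_refl _)⟩

theorem Good_congr {K K' : Type} [Group K] [Group K'] (e : K ≃* K') (h : Good K) : Good K' := by
  rcases h with h | h | h | h | h | h
  · left
    obtain ⟨N, hn, hp, hne⟩ := exists_of_pCore_ne_bot h
    refine pCore_ne_bot_of (N.map e.toMonoidHom) (hn.map _ e.surjective) ?_ ?_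
    · exact hp.map _
    · rw [Ne, Subgroup.map_eq_bot_iff_of_injective _ e.injective]
      exact hne
  · right; left
    obtain ⟨N, hn, hp, hne⟩ := exists_of_pPrimeCore_ne_bot h
    refine pPrimeCore_ne_bot_of (N.map e.toMonoidHom) (hn.map _ e.surjective) ?_ ?_
    · have : Nat.card (N.map e.toMonoidHom) = Nat.card N :=
        (Nat.card_congr (N.equivMapOfInjective e.toMonoidHom e.injective).toEquiv).symm
      rw [this]; exact hp
    · rw [Ne, Subgroup.map_eq_bot_iff_of_injective _ e.injective]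
      exact hne
  · right; right; left
    obtain ⟨n, h5, h8, ⟨f⟩⟩ := h
    exact ⟨n, h5, h8, ⟨e.symm.trans f⟩⟩
  · right; right; right; left
    obtain ⟨f⟩ := h
    exact ⟨e.symm.trans f⟩
  · right; right; right; right; left
    obtain ⟨f⟩ := h
    exact ⟨e.symm.trans f⟩
  · right; right; right; right; right
    obtain ⟨f⟩ := h
    exact ⟨e.symm.trans f⟩

/-- Conjugating a subgroup. -/
def cj (H : Subgroup Pm) (c : Pm) : Subgroup Pm := H.comap (MulAut.conj c).toMonoidHom

theorem mem_cj (H : Subgroup Pm) (c x : Pm) : x ∈ cj H c ↔ c * x * c⁻¹ ∈ H := by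
  unfold cj
  rw [Subgroup.mem_comap]
  rfl

theorem Good_cj (H : Subgroup Pm) (c : Pm) (h : Good ↥(cj H c)) : Good ↥H := by
  have hmap : (cj H c).map (MulAut.conj c).toMonoidHom = H :=
    Subgroup.map_comap_eq_self_of_surjective (MulAut.conj c).surjective H
  have e1 : ↥(cj H c) ≃* ↥((cj H c).map (MulAut.conj c).toMonoidHom) :=
    (cj H c).equivMapOfInjective _ (MulAut.conj c).injective
  exact Good_congr (e1.trans (MulEquiv.subgroupCongr hmap)) h

theorem cj_le_alt (H : Subgroup Pm) (c : Pm) (h : H ≤ alternatingGroup (Fin 8)) :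
    cj H c ≤ alternatingGroup (Fin 8) := by
  intro x hx
  rw [mem_cj] at hx
  have := h hx
  rw [Equiv.Perm.mem_alternatingGroup] at this ⊢
  rw [Equiv.Perm.sign_mul, Equiv.Perm.sign_mul, Equiv.Perm.sign_inv, mul_comm, ← mul_assoc,
    Int.units_mul_self, one_mul] at this
  exact this

/-- The group generated by a list of codes. -/
def Kc (gs : List ℕ) : Subgroup Pm := Subgroup.closure {σ | ∃ g ∈ gs, σ = pm g}

theorem pm_mem_Kc {gs : List ℕ} {g : ℕ} (h : g ∈ gs) : pm g ∈ Kc gs :=
  Subgroup.subset_closure ⟨g, h, rfl⟩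

theorem Kc_le {gs : List ℕ} {H : Subgroup Pm} (h : ∀ g ∈ gs, pm g ∈ H) : Kc gs ≤ H := by
  unfold Kc
  rw [Subgroup.closure_le]
  rintro σ ⟨g, hg, rfl⟩
  exact h g hg

/-- The statement proved for each generating list: every subgroup of the alternating group
containing the generators satisfies the conclusion. -/
def P (gs : List ℕ) : Prop :=
  ∀ H : Subgroup Pm, H ≤ alternatingGroup (Fin 8) → (∀ g ∈ gs, pm g ∈ H) → Good ↥H

theorem getD_valid {gs : List ℕ} (hgs : ∀ g ∈ gs, Valid g) (i : ℕ) :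
    Valid (gs.getD i idc) ∧ pm (gs.getD i idc) ∈ Kc gs := by
  by_cases hi : i < gs.length
  · rw [List.getD_eq_getElem _ _ hi]
    exact ⟨hgs _ (List.getElem_mem hi), pm_mem_Kc (List.getElem_mem hi)⟩
  · rw [List.getD_eq_default _ _ (by omega)]
    exact ⟨valid_idc, by rw [pm_idc]; exact one_mem _⟩

/-- Evaluate a word in the generators (base four digits, last letter first). -/
def evw (gs : List ℕ) : ℕ → ℕ → ℕ
  | 0, _ => idc
  | f + 1, w =>
    cond (Nat.beq w 0) idc
      (mulr (evw gs f (Nat.div w 4)) (gs.getD (Nat.sub (Nat.mod w 4) 1) idc))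

theorem evw_spec {gs : List ℕ} (hgs : ∀ g ∈ gs, Valid g) (f w : ℕ) :
    Valid (evw gs f w) ∧ pm (evw gs f w) ∈ Kc gs := by
  induction f generalizing w with
  | zero => exact ⟨valid_idc, by rw [evw, pm_idc]; exact one_mem _⟩
  | succ f ih =>
    rw [evw]
    cases Nat.beq w 0 with
    | true => exact ⟨valid_idc, by rw [cond_true, pm_idc]; exact one_mem _⟩
    | false =>
      rw [cond_false, mulr_eq]
      obtain ⟨h1, h2⟩ := ih (Nat.div w 4)
      obtain ⟨h3, h4⟩ := getD_valid hgs (Nat.sub (Nat.mod w 4) 1)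
      exact ⟨valid_mulc h1 h3, by rw [pm_mulc h1 h3]; exact mul_mem h2 h4⟩

/-- Induction along right multiplication by generators. -/
theorem closure_right_induction (s : Set Pm) (Q : Pm → Prop) (h1 : Q 1)
    (hs : ∀ π, Q π → ∀ γ ∈ s, Q (π * γ)) : ∀ σ ∈ Subgroup.closure s, Q σ := by
  have key : ∀ γ : Pm, γ ∈ Subgroup.closure s → ∀ π : Pm, Q π → Q (π * γ) := by
    intro γ hγ
    refine Subgroup.closure_induction (p := fun γ _ => ∀ π : Pm, Q π → Q (π * γ)) ?_ ?_ ?_ ?_ hγ
    · intro x hx π hπ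
      exact hs π hπ x hx
    · intro π hπ
      simpa using hπ
    · intro x y _ _ hx hy π hπ
      rw [← mul_assoc]
      exact hy _ (hx _ hπ)
    · intro x _ hx π hπ
      have hpow : ∀ j : ℕ, Q (π * x ^ j) := by
        intro j
        induction j with
        | zero => simpa using hπ
        | succ j ih =>
          rw [pow_succ, ← mul_assoc]
          exact hx _ ih
      have hinv : x⁻¹ = x ^ (orderOf x - 1) := by
        apply inv_eq_of_mul_eq_one_left
        rw [← pow_succ, Nat.sub_add_cancel (orderOf_pos x), pow_orderOf_eq_one]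
      rw [hinv]
      exact hpow _
  intro σ hσ
  have := key σ hσ 1 h1
  simpa using this

/-- The check that the table `E` consists of elements of the generated group: every entry is
the identity or an entry of smaller depth times a generator. -/
def chkE (gs E EP : List ℕ) (m : ℕ) : Bool :=
  allB m (fun i =>
    cond (Nat.beq (fld (accL EP 32 i) 20 8) 0) (Nat.beq (accL E 24 i) idc)
      (Nat.blt (fld (accL EP 32 i) 0 16) m &&
        Nat.blt (fld (accL EP 32 (fld (accL EP 32 i) 0 16)) 20 8) (fld (accL EP 32 i) 20 8) &&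
        Nat.beq (accL E 24 i)
          (mulr (accL E 24 (fld (accL EP 32 i) 0 16)) (gs.getD (fld (accL EP 32 i) 16 4) idc))))

theorem chkE_spec {gs E EP : List ℕ} {m : ℕ} (hgs : ∀ g ∈ gs, Valid g)
    (h : chkE gs E EP m = true) (i : ℕ) (hi : i < m) :
    Valid (accL E 24 i) ∧ pm (accL E 24 i) ∈ Kc gs := by
  have hall := allB_spec h
  have key : ∀ D : ℕ, ∀ i, i < m → fld (accL EP 32 i) 20 8 < D →
      Valid (accL E 24 i) ∧ pm (accL E 24 i) ∈ Kc gs := by
    intro D
    induction D with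
    | zero => intro i _ hd; omega
    | succ D ih =>
      intro i hi hd
      have hc := hall i hi
      cases hb : Nat.beq (fld (accL EP 32 i) 20 8) 0 with
      | true =>
        rw [hb, cond_true] at hc
        have : accL E 24 i = idc := Nat.eq_of_beq_eq_true hc
        rw [this]
        exact ⟨valid_idc, by rw [pm_idc]; exact one_mem _⟩
      | false =>
        rw [hb, cond_false, Bool.and_eq_true, Bool.and_eq_true] at hc
        obtain ⟨⟨c1, c2⟩, c3⟩ := hc
        have c1' : fld (accL EP 32 i) 0 16 < m := by simpa using c1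
        have c2' : fld (accL EP 32 (fld (accL EP 32 i) 0 16)) 20 8 < fld (accL EP 32 i) 20 8 := by
          simpa using c2
        have c3' := Nat.eq_of_beq_eq_true c3
        obtain ⟨v1, v2⟩ := ih _ c1' (by omega)
        obtain ⟨v3, v4⟩ := getD_valid hgs (fld (accL EP 32 i) 16 4)
        rw [c3', mulr_eq]
        exact ⟨valid_mulc v1 v3, by rw [pm_mulc v1 v3]; exact mul_mem v2 v4⟩
  exact key _ i hi (Nat.lt_succ_self _)

end Cfsg.Agent.Lib.Helper98.A8
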