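import Mathlib
import Cfsg.Agent.Lib.Helper98.A8.Good
import Cfsg.Agent.Lib.Helper98.A8.Pkgs

set_option autoImplicit false

/-!
The rules of the closure tree: node rule, top rule, seed rule and root rule, each with the check
which the kernel evaluates.
-/

namespace Cfsg.Agent.Lib.Helper98.A8

open Equiv

/-- The table `S` lists all permutations, the even ones first. -/
def SOK (S : List ℕ) : Prop :=
  S.length = 160 ∧ ∀ σ : Pm, ∃ k, k < 40320 ∧ accL S 24 k = enc σ ∧
    (k < 20160 ↔ Equiv.Perm.sign σ = 1)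

theorem SOK_of_chk (S NX : List ℕ) (i0 : ℕ) (hl1 : S.length = 160) (hl2 : NX.length = 160)
    (h : chkS S NX i0 = true) : SOK S := ⟨hl1, S_complete S NX i0 hl1 hl2 h⟩

theorem even_index {S : List ℕ} (hS : SOK S) (σ : Pm) (hσ : σ ∈ alternatingGroup (Fin 8)) :
    ∃ k, k < 20160 ∧ accL S 24 k = enc σ := by
  obtain ⟨k, _, hk, hpar⟩ := hS.2 σ
  exact ⟨k, hpar.mpr (Equiv.Perm.mem_alternatingGroup.mp hσ), hk⟩

/-- The check that two codes are inverse to each other. -/
def chkInv (c d : ℕ) : Bool :=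
  Nat.blt c 16777216 && Nat.blt d 16777216 && Nat.beq (mulr c d) idc && Nat.beq (mulr d c) idc

theorem chkInv_spec {c d : ℕ} (h : chkInv c d = true) :
    Valid c ∧ Valid d ∧ pm d = (pm c)⁻¹ := by
  unfold chkInv at h
  rw [Bool.and_eq_true, Bool.and_eq_true, Bool.and_eq_true] at h
  obtain ⟨⟨⟨h1, h2⟩, h3⟩, h4⟩ := h
  have h1' : c < 16777216 := by simpa using h1
  have h2' : d < 16777216 := by simpa using h2
  have h3' : mulc c d = idc := Nat.eq_of_beq_eq_true h3
  have h4' : mulc d c = idc := Nat.eq_of_beq_eq_true h4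
  have vc := valid_of_inv c d h3' h4' h1'
  have vd := valid_of_inv d c h4' h3' h2'
  refine ⟨vc, vd, ?_⟩
  apply eq_inv_of_mul_eq_one_right
  rw [← pm_mulc vc vd, h3', pm_idc]

/-- The check that two lists consist of mutually inverse codes. -/
def chkV : List ℕ → List ℕ → Bool
  | c :: cs, d :: ds => chkInv c d && chkV cs ds
  | [], _ => true
  | _ :: _, [] => false

theorem chkV_spec {L LI : List ℕ} (h : chkV L LI = true) :
    ∀ c ∈ L, ∃ d, Valid c ∧ Valid d ∧ pm d = (pm c)⁻¹ := by
  induction L generalizing LI with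
  | nil => intro c hc; simp at hc
  | cons c cs ih =>
    cases LI with
    | nil => simp [chkV] at h
    | cons d ds =>
      rw [chkV, Bool.and_eq_true] at h
      intro x hx
      rcases List.mem_cons.mp hx with rfl | hx
      · exact ⟨d, chkInv_spec h.1⟩
      · exact ih h.2 x hx

theorem chkV_valid {L LI : List ℕ} (h : chkV L LI = true) : ∀ c ∈ L, Valid c := by
  intro c hc
  obtain ⟨d, hd⟩ := chkV_spec h c hc
  exact hd.1

/-- The check of the node rule: every even permutation is in the group or in the double coset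
of one of the listed elements. -/
def chkN (S E NT R : List ℕ) (m : ℕ) : Bool :=
  allC2 S NT 24 32 0 (fun _ y e =>
    Nat.blt (fld e 0 12) m &&
    cond (Nat.beq (fld e 24 8) 0) (Nat.beq y (accL E 24 (fld e 0 12)))
      (Nat.blt (fld e 12 12) m &&
        Nat.beq y (mulr (mulr (accL E 24 (fld e 0 12)) (R.getD (Nat.sub (fld e 24 8) 1) idc))
          (accL E 24 (fld e 12 12)))))

theorem node_rule (S : List ℕ) (hS : SOK S) (gs E EP NT R : List ℕ) (m : ℕ)
    (hgs : ∀ g ∈ gs, Valid g) (hE : chkE gs E EP m = true) (hNl : NT.length = 80)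
    (hN : chkN S E NT R m = true) (hR : ∀ r ∈ R, Valid r ∧ P (r :: gs))
    (hK : Good ↥(Kc gs)) : P gs := by
  intro H hH hg
  have hKH : Kc gs ≤ H := Kc_le hg
  by_cases hle : H ≤ Kc gs
  · have e : H = Kc gs := le_antisymm hle hKH
    rw [e]; exact hK
  · obtain ⟨y, hyH, hyK⟩ := SetLike.not_le_iff_exists.mp hle
    obtain ⟨k, hk, hky⟩ := even_index hS y (hH hyH)
    have hc := allC2_spec' S NT 24 32 _ hN k (by rw [hS.1]; omega) (by rw [hNl]; omega)
    rw [hky] at hc
    obtain ⟨e, he⟩ : ∃ e, e = accL NT 32 k := ⟨_, rfl⟩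
    rw [← he, Bool.and_eq_true] at hc
    obtain ⟨hi, hc⟩ := hc
    have hi' : fld e 0 12 < m := by simpa using hi
    obtain ⟨vi, mi⟩ := chkE_spec hgs hE _ hi'
    cases hb : Nat.beq (fld e 24 8) 0 with
    | true =>
      rw [hb, cond_true] at hc
      have h1 : enc y = accL E 24 (fld e 0 12) := Nat.eq_of_beq_eq_true hc
      exact absurd (by rw [eq_pm_of_enc h1]; exact mi) hyK
    | false =>
      rw [hb, cond_false, Bool.and_eq_true] at hc
      obtain ⟨hj, hc⟩ := hc
      have hj' : fld e 12 12 < m := by simpa using hj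
      obtain ⟨vj, mj⟩ := chkE_spec hgs hE _ hj'
      have hy : enc y = mulc (mulc (accL E 24 (fld e 0 12))
          (R.getD (Nat.sub (fld e 24 8) 1) idc)) (accL E 24 (fld e 12 12)) :=
        Nat.eq_of_beq_eq_true hc
      by_cases hr : Nat.sub (fld e 24 8) 1 < R.length
      · have hmem : R.getD (Nat.sub (fld e 24 8) 1) idc ∈ R := by
          rw [List.getD_eq_getElem _ _ hr]; exact List.getElem_mem hr
        obtain ⟨vr, hPr⟩ := hR _ hmem
        have hy' : y = pm (accL E 24 (fld e 0 12)) * pm (R.getD (Nat.sub (fld e 24 8) 1) idc)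
            * pm (accL E 24 (fld e 12 12)) := by
          rw [eq_pm_of_enc hy, pm_mulc (valid_mulc vi vr) vj, pm_mulc vi vr]
        have hrH : pm (R.getD (Nat.sub (fld e 24 8) 1) idc) ∈ H := by
          have e1 : pm (R.getD (Nat.sub (fld e 24 8) 1) idc)
              = (pm (accL E 24 (fld e 0 12)))⁻¹ * y * (pm (accL E 24 (fld e 12 12)))⁻¹ := by
            rw [hy']; group
          rw [e1]
          exact mul_mem (mul_mem (inv_mem (hKH mi)) hyH) (inv_mem (hKH mj))
        apply hPr H hH
        intro g hg'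
        rcases List.mem_cons.mp hg' with h | h
        · rw [h]; exact hrH
        · exact hg g h
      · have e0 : R.getD (Nat.sub (fld e 24 8) 1) idc = idc :=
          List.getD_eq_default _ _ (by omega)
        rw [e0] at hy
        have : y ∈ Kc gs := by
          rw [eq_pm_of_enc hy, pm_mulc (valid_mulc vi valid_idc) vj, pm_mulc vi valid_idc, pm_idc]
          exact mul_mem (mul_mem mi (one_mem _)) mj
        exact absurd this hyK

/-- The top rule: if the generated group contains all even permutations. -/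
theorem top_rule (S : List ℕ) (hS : SOK S) (gs EP : List ℕ) (hgs : ∀ g ∈ gs, Valid g)
    (hE : chkE gs S EP 20160 = true) : P gs := by
  intro H hH hg
  have hKH : Kc gs ≤ H := Kc_le hg
  have hA : alternatingGroup (Fin 8) ≤ Kc gs := by
    intro σ hσ
    obtain ⟨k, hk, hky⟩ := even_index hS σ hσ
    obtain ⟨_, mk⟩ := chkE_spec hgs hE k hk
    rw [hky, pm_enc] at mk
    exact mk
  have e : H = alternatingGroup (Fin 8) := le_antisymm hH (hA.trans hKH)
  right; right; left
  exact ⟨8, by norm_num, le_refl _, ⟨MulEquiv.subgroupCongr e⟩⟩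

/-- The words of a seed. -/
def chkSeedW (gs : List ℕ) (c ci : ℕ) : List ℕ → List ℕ → Bool
  | g' :: gs', w :: ws => Nat.beq (evw gs 64 w) (mulr (mulr c g') ci) && chkSeedW gs c ci gs' ws
  | [], _ => true
  | _ :: _, [] => false

/-- The check of the seed rule: conjugates of the generators `gs'` are words in `gs`. -/
def chkSeed (gs gs' : List ℕ) (c ci : ℕ) (ws : List ℕ) : Bool :=
  chkInv c ci && chkSeedW gs c ci gs' ws

theorem chkSeedW_spec {gs : List ℕ} (hgs : ∀ g ∈ gs, Valid g) {c ci : ℕ} (hc : Valid c)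
    (hci : Valid ci) (hinv : pm ci = (pm c)⁻¹) (gs' ws : List ℕ) (hv : ∀ g ∈ gs', Valid g)
    (h : chkSeedW gs c ci gs' ws = true) :
    ∀ g' ∈ gs', pm c * pm g' * (pm c)⁻¹ ∈ Kc gs := by
  induction gs' generalizing ws with
  | nil => intro g hg; simp at hg
  | cons g' gs' ih =>
    cases ws with
    | nil => simp [chkSeedW] at h
    | cons w ws =>
      rw [chkSeedW, Bool.and_eq_true] at h
      intro x hx
      rcases List.mem_cons.mp hx with hx | hx
      · have e := Nat.eq_of_beq_eq_true h.1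
        simp only [mulr_eq] at e
        have vx : Valid g' := hv g' (List.mem_cons_self ..)
        obtain ⟨v1, m1⟩ := evw_spec hgs 64 w
        rw [e, pm_mulc (valid_mulc hc vx) hci, pm_mulc hc vx, hinv] at m1
        rw [hx]
        exact m1
      · exact ih ws (fun g hg => hv g (List.mem_cons_of_mem _ hg)) h.2 x hx

theorem seed_rule (gs gs' : List ℕ) (c ci : ℕ) (ws : List ℕ) (hgs : ∀ g ∈ gs, Valid g)
    (hgs' : ∀ g ∈ gs', Valid g) (h : chkSeed gs gs' c ci ws = true) (hP : P gs') : P gs := by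
  unfold chkSeed at h
  rw [Bool.and_eq_true] at h
  obtain ⟨vc, vci, hinv⟩ := chkInv_spec h.1
  have key := chkSeedW_spec hgs vc vci hinv gs' ws hgs' h.2
  intro H hH hg
  have hKH : Kc gs ≤ H := Kc_le hg
  apply Good_cj H (pm c)
  apply hP (cj H (pm c)) (cj_le_alt H (pm c) hH)
  intro g' hg'
  rw [mem_cj]
  exact hKH (key g' hg')

/-- Powers of a code. -/
def pwr (g : ℕ) : ℕ → ℕ
  | 0 => idc
  | j + 1 => mulr (pwr g j) g

theorem pwr_spec {g : ℕ} (hg : Valid g) (j : ℕ) : Valid (pwr g j) ∧ pm (pwr g j) = pm g ^ j := by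
  induction j with
  | zero => exact ⟨valid_idc, by rw [pwr, pm_idc, pow_zero]⟩
  | succ j ih =>
    rw [pwr, mulr_eq]
    exact ⟨valid_mulc ih.1 hg, by rw [pm_mulc ih.1 hg, ih.2, pow_succ]⟩

/-- The check on the list of elements normalising the group generated by `g`. -/
def chkNL (g : ℕ) (NL NI NJ : List ℕ) : Bool :=
  allB NL.length (fun a =>
    chkInv (NL.getD a idc) (NI.getD a idc) &&
    Nat.beq (mulr (NL.getD a idc) g) (mulr (pwr g (NJ.getD a 0)) (NL.getD a idc)))

/-- The check of the root rule: every even permutation `y` normalises the group generated by `g`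
or conjugates `g` to a conjugate, under the normaliser, of one of the listed elements. -/
def chkRoot (S RT NL NI R : List ℕ) (g : ℕ) : Bool :=
  allC2 S RT 24 16 0 (fun _ y e =>
    cond (Nat.beq (fld e 8 8) 0)
      (Nat.beq (mulr y g) (mulr (pwr g (fld e 0 8)) y))
      (Nat.blt (fld e 0 8) NL.length && Nat.blt (Nat.sub (fld e 8 8) 1) R.length &&
        Nat.beq (mulr (mulr (NI.getD (fld e 0 8) idc) y) g)
          (mulr (R.getD (Nat.sub (fld e 8 8) 1) idc) (mulr (NI.getD (fld e 0 8) idc) y))))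

theorem root_rule (hodd : PkgOdd) (S : List ℕ) (hS : SOK S) (g : ℕ) (hg : Valid g) (p : ℕ)
    (hp : p.Prime) (hp2 : p ≠ 2) (ho : orderOf (pm g) = p) (RT NL NI NJ R : List ℕ)
    (hRl : RT.length = 80) (hNL : chkNL g NL NI NJ = true)
    (hRT : chkRoot S RT NL NI R g = true) (hR : ∀ r ∈ R, Valid r ∧ P [r, g]) : P [g] := by
  intro H hH hgH
  have hgH' : pm g ∈ H := hgH g (List.mem_singleton.mpr rfl)
  by_cases hn : ∀ h ∈ H, h * pm g * h⁻¹ ∈ Subgroup.zpowers (pm g)
  · right; left
    exact hodd H (pm g) p hp hp2 ho hgH' hn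
  · push_neg at hn
    obtain ⟨y, hyH, hyn⟩ := hn
    obtain ⟨k, hk, hky⟩ := even_index hS y (hH hyH)
    have hc := allC2_spec' S RT 24 16 _ hRT k (by rw [hS.1]; omega) (by rw [hRl]; omega)
    rw [hky] at hc
    obtain ⟨e, he⟩ : ∃ e, e = accL RT 16 k := ⟨_, rfl⟩
    rw [← he] at hc
    cases hb : Nat.beq (fld e 8 8) 0 with
    | true =>
      rw [hb, cond_true] at hc
      have h1 := Nat.eq_of_beq_eq_true hc
      simp only [mulr_eq] at h1
      obtain ⟨vp, ep⟩ := pwr_spec hg (fld e 0 8)
      have h2 : y * pm g = pm g ^ (fld e 0 8) * y := by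
        have h3 := congrArg pm h1
        rw [pm_mulc (valid_enc y) hg, pm_mulc vp (valid_enc y), pm_enc, ep] at h3
        exact h3
      exfalso; apply hyn
      have h4 : y * pm g * y⁻¹ = pm g ^ (fld e 0 8) := by rw [h2]; group
      rw [h4]
      exact Subgroup.pow_mem _ (Subgroup.mem_zpowers _) _
    | false =>
      rw [hb, cond_false, Bool.and_eq_true, Bool.and_eq_true] at hc
      obtain ⟨⟨ha, hr⟩, h1⟩ := hc
      have ha' : fld e 0 8 < NL.length := by simpa using ha
      have hr' : Nat.sub (fld e 8 8) 1 < R.length := by simpa using hr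
      have hnl := allB_spec hNL _ ha'
      simp only [Bool.and_eq_true] at hnl
      obtain ⟨hinv, hnorm⟩ := hnl
      obtain ⟨vn, vni, eni⟩ := chkInv_spec hinv
      have hnorm' := Nat.eq_of_beq_eq_true hnorm
      simp only [mulr_eq] at hnorm'
      obtain ⟨vp, ep⟩ := pwr_spec hg (NJ.getD (fld e 0 8) 0)
      have h2 : pm (NL.getD (fld e 0 8) idc) * pm g
          = pm g ^ (NJ.getD (fld e 0 8) 0) * pm (NL.getD (fld e 0 8) idc) := by
        have h3 := congrArg pm hnorm'
        rw [pm_mulc vn hg, pm_mulc vp vn, ep] at h3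
        exact h3
      have hmem : R.getD (Nat.sub (fld e 8 8) 1) idc ∈ R := by
        rw [List.getD_eq_getElem _ _ hr']; exact List.getElem_mem hr'
      obtain ⟨vr, hPr⟩ := hR _ hmem
      have h1' := Nat.eq_of_beq_eq_true h1
      simp only [mulr_eq] at h1'
      have h3 : ((pm (NL.getD (fld e 0 8) idc))⁻¹ * y) * pm g
          = pm (R.getD (Nat.sub (fld e 8 8) 1) idc) * ((pm (NL.getD (fld e 0 8) idc))⁻¹ * y) := by
        have h4 := congrArg pm h1'
        rw [pm_mulc (valid_mulc vni (valid_enc y)) hg, pm_mulc vr (valid_mulc vni (valid_enc y)),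
          pm_mulc vni (valid_enc y), pm_enc, eni] at h4
        exact h4
      have h4 : pm (NL.getD (fld e 0 8) idc) * pm (R.getD (Nat.sub (fld e 8 8) 1) idc)
          * (pm (NL.getD (fld e 0 8) idc))⁻¹ = y * pm g * y⁻¹ := by
        have h5 : pm (R.getD (Nat.sub (fld e 8 8) 1) idc)
            = ((pm (NL.getD (fld e 0 8) idc))⁻¹ * y) * pm g
              * ((pm (NL.getD (fld e 0 8) idc))⁻¹ * y)⁻¹ := by
          rw [h3]; group
        rw [h5]; group
      apply Good_cj H (pm (NL.getD (fld e 0 8) idc))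
      apply hPr (cj H (pm (NL.getD (fld e 0 8) idc)))
        (cj_le_alt H (pm (NL.getD (fld e 0 8) idc)) hH)
      intro x hx
      rw [mem_cj]
      rcases List.mem_cons.mp hx with hx | hx
      · rw [hx, h4]; exact mul_mem (mul_mem hyH hgH') (inv_mem hyH)
      · rw [List.mem_singleton] at hx
        have h6 : pm (NL.getD (fld e 0 8) idc) * pm g * (pm (NL.getD (fld e 0 8) idc))⁻¹
            = pm g ^ (NJ.getD (fld e 0 8) 0) := by rw [h2]; group
        rw [hx, h6]; exact pow_mem hgH' _

end Cfsg.Agent.Lib.Helper98.A8
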