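import Mathlib
import Cfsg.Agent.Lib.Helper98.A8.Rules

set_option autoImplicit false

/-!
Complete element tables: a sorted table closed under right multiplication by the generators
lists the generated group exactly once.
-/

namespace Cfsg.Agent.Lib.Helper98.A8

open Equiv

theorem allB_of {n : ℕ} {f : ℕ → Bool} (h : ∀ k < n, f k = true) : allB n f = true := by
  induction n with
  | zero => rfl
  | succ n ih =>
    rw [allB, Bool.and_eq_true]
    exact ⟨h n (Nat.lt_succ_self n), ih (fun k hk => h k (Nat.lt_succ_of_lt hk))⟩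

/-- The table is strictly increasing. -/
def chkSorted (E : List ℕ) (m : ℕ) : Bool :=
  allB (Nat.sub m 1) (fun i => Nat.blt (accL E 24 i) (accL E 24 (Nat.add i 1)))

theorem chkSorted_spec {E : List ℕ} {m : ℕ} (h : chkSorted E m = true) :
    ∀ i j, i < j → j < m → accL E 24 i < accL E 24 j := by
  have hall := allB_spec h
  have step : ∀ i, i + 1 < m → accL E 24 i < accL E 24 (i + 1) := by
    intro i hi
    have h1 := hall i (by show i < m - 1; omega)
    simpa using h1
  intro i j hij hj
  induction j with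
  | zero => omega
  | succ j ih =>
    rcases Nat.lt_succ_iff_lt_or_eq.mp hij with h1 | h1
    · exact lt_trans (ih h1 (by omega)) (step j hj)
    · rw [h1]; exact step j hj

/-- One row of the closure table. -/
def chkClRow (E : List ℕ) (m x e : ℕ) : List ℕ → ℕ → Bool
  | [], _ => true
  | g :: gs, off =>
    Nat.blt (fld e off 16) m && Nat.beq (accL E 24 (fld e off 16)) (mulr x g)
      && chkClRow E m x e gs (Nat.add off 16)

theorem chkClRow_spec {E : List ℕ} {m x e : ℕ} (gs : List ℕ) (off : ℕ)
    (h : chkClRow E m x e gs off = true) : ∀ g ∈ gs, ∃ j, j < m ∧ accL E 24 j = mulc x g := by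
  induction gs generalizing off with
  | nil => intro g hg; simp at hg
  | cons g gs ih =>
    rw [chkClRow, Bool.and_eq_true, Bool.and_eq_true] at h
    obtain ⟨⟨h1, h2⟩, h3⟩ := h
    intro y hy
    rcases List.mem_cons.mp hy with hy | hy
    · rw [hy]; exact ⟨_, by simpa using h1, Nat.eq_of_beq_eq_true h2⟩
    · exact ih _ h3 y hy

/-- The table contains the identity and is closed under right multiplication by generators. -/
def chkCl (gs E EN : List ℕ) (m i0 : ℕ) : Bool :=
  Nat.blt i0 m && Nat.beq (accL E 24 i0) idc &&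
    allB m (fun i => chkClRow E m (accL E 24 i) (accL EN 48 i) gs 0)

/-- A complete table of the group generated by `gs`. -/
structure Tab (gs E : List ℕ) (m : ℕ) : Prop where
  valid : ∀ i, i < m → Valid (accL E 24 i) ∧ pm (accL E 24 i) ∈ Kc gs
  complete : ∀ σ ∈ Kc gs, ∃ i, i < m ∧ accL E 24 i = enc σ
  card : Nat.card ↥(Kc gs) = m

theorem tab_of_chk (gs E EP EN : List ℕ) (m i0 : ℕ) (hgs : ∀ g ∈ gs, Valid g)
    (hE : chkE gs E EP m = true) (hs : chkSorted E m = true)
    (hc : chkCl gs E EN m i0 = true) : Tab gs E m := by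
  have hv := chkE_spec hgs hE
  unfold chkCl at hc
  rw [Bool.and_eq_true, Bool.and_eq_true] at hc
  obtain ⟨⟨c1, c2⟩, c3⟩ := hc
  have c1' : i0 < m := by simpa using c1
  have c2' : accL E 24 i0 = idc := Nat.eq_of_beq_eq_true c2
  have hall := allB_spec c3
  have hcomp : ∀ σ ∈ Kc gs, ∃ i, i < m ∧ accL E 24 i = enc σ := by
    apply closure_right_induction {σ | ∃ g ∈ gs, σ = pm g}
      (fun σ => ∃ i, i < m ∧ accL E 24 i = enc σ)
    · exact ⟨i0, c1', by rw [c2', enc_one]⟩
    · rintro π ⟨i, hi, hiπ⟩ γ ⟨g, hg, rfl⟩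
      obtain ⟨j, hj, hjx⟩ := chkClRow_spec gs 0 (hall i hi) g hg
      refine ⟨j, hj, ?_⟩
      rw [hjx, hiπ, enc_mul, enc_pm (hgs g hg)]
  refine ⟨hv, hcomp, ?_⟩
  have hmono := chkSorted_spec hs
  let f : Fin m → ↥(Kc gs) := fun i => ⟨pm (accL E 24 i), (hv i i.isLt).2⟩
  have hbij : Function.Bijective f := by
    constructor
    · intro i j hij
      have h1 : pm (accL E 24 i) = pm (accL E 24 j) := congrArg Subtype.val hij
      have h2 : accL E 24 i = accL E 24 j := by
        rw [← enc_pm (hv i i.isLt).1, ← enc_pm (hv j j.isLt).1, h1]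
      apply Fin.ext
      rcases lt_trichotomy (i : ℕ) j with h | h | h
      · exact absurd h2 (ne_of_lt (hmono _ _ h j.isLt))
      · exact h
      · exact absurd h2.symm (ne_of_lt (hmono _ _ h i.isLt))
    · rintro ⟨σ, hσ⟩
      obtain ⟨i, hi, hiσ⟩ := hcomp σ hσ
      refine ⟨⟨i, hi⟩, ?_⟩
      apply Subtype.ext
      show pm (accL E 24 i) = σ
      rw [hiσ, pm_enc]
  rw [← Nat.card_eq_of_bijective f hbij, Nat.card_fin]

end Cfsg.Agent.Lib.Helper98.A8
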