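import Mathlib
import Cfsg.Agent.Lib.Helper98.A8.Card
import Cfsg.Agent.Lib.Helper5.PSL2

set_option autoImplicit false

/-!
Certificates for the conclusion at a node: a nontrivial core, or an isomorphism with an
alternating or symmetric group or with `GL₃(2)`.
-/

namespace Cfsg.Agent.Lib.Helper98.A8

open Equiv

/-- Membership in a list of numbers. -/
def memB : List ℕ → ℕ → Bool
  | [], _ => false
  | a :: as, x => Nat.beq a x || memB as x

theorem memB_spec {L : List ℕ} {x : ℕ} (h : memB L x = true) : x ∈ L := by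
  induction L with
  | nil => simp [memB] at h
  | cons a as ih =>
    rw [memB, Bool.or_eq_true] at h
    rcases h with h | h
    · rw [Nat.eq_of_beq_eq_true h]; exact List.mem_cons_self ..
    · exact List.mem_cons_of_mem _ (ih h)

/-- Each entry of the first list is the value of the corresponding word. -/
def chkW (gs : List ℕ) : List ℕ → List ℕ → Bool
  | t :: ts, w :: ws => Nat.beq t (evw gs 64 w) && chkW gs ts ws
  | [], _ => true
  | _ :: _, [] => false

theorem chkW_spec {gs : List ℕ} (hgs : ∀ g ∈ gs, Valid g) (Tl ws : List ℕ)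
    (h : chkW gs Tl ws = true) : ∀ t ∈ Tl, Valid t ∧ pm t ∈ Kc gs := by
  induction Tl generalizing ws with
  | nil => intro t ht; simp at ht
  | cons t ts ih =>
    cases ws with
    | nil => simp [chkW] at h
    | cons w ws =>
      rw [chkW, Bool.and_eq_true] at h
      intro x hx
      rcases List.mem_cons.mp hx with hx | hx
      · rw [hx, Nat.eq_of_beq_eq_true h.1]; exact evw_spec hgs 64 w
      · exact ih ws h.2 x hx

/-- The list `Tl` is stable under conjugation by the generators and their inverses. -/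
def chkConjL (Tl : List ℕ) : List ℕ → List ℕ → Bool
  | g :: gs, gi :: gis =>
    chkInv g gi &&
      Tl.all (fun t => memB Tl (mulr (mulr g t) gi) && memB Tl (mulr (mulr gi t) g)) &&
      chkConjL Tl gs gis
  | [], _ => true
  | _ :: _, [] => false

theorem chkConjL_spec {Tl : List ℕ} (hT : ∀ t ∈ Tl, Valid t) (gs gi : List ℕ)
    (h : chkConjL Tl gs gi = true) :
    ∀ g ∈ gs, ∀ t ∈ Tl, (∃ t' ∈ Tl, pm g * pm t * (pm g)⁻¹ = pm t') ∧
      (∃ t' ∈ Tl, (pm g)⁻¹ * pm t * pm g = pm t') := by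
  induction gs generalizing gi with
  | nil => intro g hg; simp at hg
  | cons g gs ih =>
    cases gi with
    | nil => simp [chkConjL] at h
    | cons gi gis =>
      rw [chkConjL, Bool.and_eq_true, Bool.and_eq_true] at h
      obtain ⟨⟨h1, h2⟩, h3⟩ := h
      intro x hx
      rcases List.mem_cons.mp hx with hx | hx
      · rw [hx]
        obtain ⟨vg, vgi, einv⟩ := chkInv_spec h1
        intro t ht
        have h4 := List.all_eq_true.mp h2 t ht
        rw [Bool.and_eq_true] at h4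
        have vt := hT t ht
        constructor
        · refine ⟨_, memB_spec h4.1, ?_⟩
          rw [mulr_eq, mulr_eq, pm_mulc (valid_mulc vg vt) vgi, pm_mulc vg vt, einv]
        · refine ⟨_, memB_spec h4.2, ?_⟩
          rw [mulr_eq, mulr_eq, pm_mulc (valid_mulc vgi vt) vg, pm_mulc vgi vt, einv]
      · exact ih gis h3 x hx

/-- The certificate for a nontrivial `2`-core: commuting involutions, stable under
conjugation. -/
def chkInvCore (gs gi Tl ws : List ℕ) : Bool :=
  chkW gs Tl ws &&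
  (match Tl with
    | [] => false
    | t :: _ => !(Nat.beq t idc)) &&
  Tl.all (fun t => Nat.beq (mulr t t) idc) &&
  Tl.all (fun s => Tl.all (fun t => Nat.beq (mulr s t) (mulr t s))) &&
  chkConjL Tl gs gi

theorem good_of_invCore (hinv : PkgInv) (gs gi Tl ws : List ℕ) (hgs : ∀ g ∈ gs, Valid g)
    (h : chkInvCore gs gi Tl ws = true) : Good ↥(Kc gs) := by
  unfold chkInvCore at h
  rw [Bool.and_eq_true, Bool.and_eq_true, Bool.and_eq_true, Bool.and_eq_true] at h
  obtain ⟨⟨⟨⟨h1, h2⟩, h3⟩, h4⟩, h5⟩ := h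
  have hW := chkW_spec hgs Tl ws h1
  have hT : ∀ t ∈ Tl, Valid t := fun t ht => (hW t ht).1
  have hC := chkConjL_spec hT gs gi h5
  left
  apply hinv {σ | ∃ g ∈ gs, σ = pm g} {σ | ∃ t ∈ Tl, σ = pm t}
  · cases Tl with
    | nil => simp at h2
    | cons t ts =>
      refine ⟨pm t, ⟨t, List.mem_cons_self .., rfl⟩, ?_⟩
      intro h0
      have e : t = idc := by
        rw [← enc_pm (hT t (List.mem_cons_self ..)), h0, enc_one]
      rw [e] at h2
      simp at h2
  · rintro σ ⟨t, ht, rfl⟩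
    exact (hW t ht).2
  · rintro σ ⟨t, ht, rfl⟩
    have e := Nat.eq_of_beq_eq_true (List.all_eq_true.mp h3 t ht)
    rw [mulr_eq] at e
    rw [← pm_mulc (hT t ht) (hT t ht), e, pm_idc]
  · rintro σ ⟨s, hs, rfl⟩ τ ⟨t, ht, rfl⟩
    have e := Nat.eq_of_beq_eq_true (List.all_eq_true.mp (List.all_eq_true.mp h4 s hs) t ht)
    rw [mulr_eq, mulr_eq] at e
    rw [← pm_mulc (hT s hs) (hT t ht), e, pm_mulc (hT t ht) (hT s hs)]
  · rintro σ ⟨g, hg, rfl⟩ τ ⟨t, ht, rfl⟩
    obtain ⟨⟨t1, ht1, e1⟩, ⟨t2, ht2, e2⟩⟩ := hC g hg t ht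
    exact ⟨⟨t1, ht1, e1⟩, ⟨t2, ht2, e2⟩⟩

/-- The certificate for a nontrivial odd core: a normalised element of order three. -/
def chkOddCore (gs gi : List ℕ) (c ci w : ℕ) : Bool :=
  Nat.beq c (evw gs 64 w) && chkInv c ci && Nat.beq (mulr c c) ci && !(Nat.beq c idc) &&
    chkConjL [c, ci] gs gi

theorem good_of_oddCore (hodd : PkgOddG) (gs gi : List ℕ) (c ci w : ℕ)
    (hgs : ∀ g ∈ gs, Valid g) (h : chkOddCore gs gi c ci w = true) : Good ↥(Kc gs) := by
  unfold chkOddCore at h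
  rw [Bool.and_eq_true, Bool.and_eq_true, Bool.and_eq_true, Bool.and_eq_true] at h
  obtain ⟨⟨⟨⟨h1, h2⟩, h3⟩, h4⟩, h5⟩ := h
  obtain ⟨vc, vci, einv⟩ := chkInv_spec h2
  have hcK : pm c ∈ Kc gs := by
    rw [Nat.eq_of_beq_eq_true h1]; exact (evw_spec hgs 64 w).2
  have hT : ∀ t ∈ [c, ci], Valid t := by
    intro t ht
    rcases List.mem_cons.mp ht with ht | ht
    · rw [ht]; exact vc
    · rw [List.mem_singleton] at ht; rw [ht]; exact vci
  have hC := chkConjL_spec hT gs gi h5
  have hsq : pm c * pm c = (pm c)⁻¹ := by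
    have e := Nat.eq_of_beq_eq_true h3
    rw [mulr_eq] at e
    rw [← pm_mulc vc vc, e, einv]
  have hne : pm c ≠ 1 := by
    intro h0
    have e : c = idc := by rw [← enc_pm vc, h0, enc_one]
    rw [e] at h4
    simp at h4
  have hord : orderOf (pm c) = 3 := by
    haveI : Fact (Nat.Prime 3) := ⟨by norm_num⟩
    apply orderOf_eq_prime _ hne
    rw [pow_succ, pow_two, hsq, inv_mul_cancel]
  have hmemz : ∀ t ∈ [c, ci], pm t ∈ Subgroup.zpowers (pm c) := by
    intro t ht
    rcases List.mem_cons.mp ht with ht | ht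
    · rw [ht]; exact Subgroup.mem_zpowers _
    · rw [List.mem_singleton] at ht; rw [ht, einv]
      exact inv_mem (Subgroup.mem_zpowers _)
  right; left
  apply hodd {σ | ∃ g ∈ gs, σ = pm g} (pm c) 3 (by norm_num) (by norm_num) hord hcK
  rintro σ ⟨g, hg, rfl⟩
  obtain ⟨⟨t1, ht1, e1⟩, ⟨t2, ht2, e2⟩⟩ := hC g hg c (List.mem_cons_self ..)
  exact ⟨by rw [e1]; exact hmemz t1 ht1, by rw [e2]; exact hmemz t2 ht2⟩

/-- The certificate for the action on the first `n` points: they are permuted faithfully. -/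
def chkNat1 (e n : ℕ) : Bool :=
  allB n (fun x => Nat.blt (dr e x) n) &&
    (Nat.beq e idc || !(allB n (fun x => Nat.beq (dr e x) x)))

/-- The certificate for the action on the first `n` points. -/
def chkNat (E : List ℕ) (m n : ℕ) : Bool :=
  allB m (fun i => chkNat1 (accL E 24 i) n)

theorem chkNat_spec {gs E : List ℕ} {m n : ℕ} (hn : n ≤ 8) (ht : Tab gs E m)
    (h : chkNat E m n = true) (k : Pm) (hk : k ∈ Kc gs) :
    (∀ x : Fin 8, (x : ℕ) < n → ((k x : Fin 8) : ℕ) < n) ∧
    ((∀ x : Fin 8, (x : ℕ) < n → k x = x) → k = 1) := by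
  obtain ⟨i, hi, hik⟩ := ht.complete k hk
  have hc := allB_spec h i hi
  simp only [chkNat1, Bool.and_eq_true] at hc
  rw [hik] at hc
  obtain ⟨h1, h2⟩ := hc
  have hdr : ∀ x : Fin 8, dr (enc k) (x : ℕ) = ((k x : Fin 8) : ℕ) := fun x => dg_enc k x
  constructor
  · intro x hx
    have h3 := allB_spec h1 x hx
    rw [hdr] at h3
    simpa using h3
  · intro hfix
    rw [Bool.or_eq_true] at h2
    rcases h2 with h2 | h2
    · apply enc_injective
      rw [Nat.eq_of_beq_eq_true h2, enc_one]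
    · have h3 : allB n (fun x => Nat.beq (dr (enc k) x) x) = true := by
        apply allB_of
        intro x hx
        have hx8 : x < 8 := by omega
        have e1 := hdr ⟨x, hx8⟩
        have e2 := hfix ⟨x, hx8⟩ hx
        rw [e2] at e1
        have e3 : dr (enc k) x = x := e1
        rw [e3]; exact Nat.beq_refl x
      rw [h3] at h2
      simp at h2

theorem hom_of_nat (hact : PkgAct) {gs E : List ℕ} {m n : ℕ} (hn : n ≤ 8) (ht : Tab gs E m)
    (h : chkNat E m n = true) :
    ∃ f : ↥(Kc gs) →* Equiv.Perm ↥(Finset.univ.filter (fun x : Fin 8 => (x : ℕ) < n)),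
      Function.Injective f := by
  apply hact (Kc gs) (Fin 8) (MonoidHom.id Pm) (Finset.univ.filter (fun x : Fin 8 => (x : ℕ) < n))
  · intro k hk x hx
    rw [Finset.mem_filter] at hx ⊢
    exact ⟨Finset.mem_univ _, (chkNat_spec hn ht h k hk).1 x hx.2⟩
  · intro k hk hfix
    apply (chkNat_spec hn ht h k hk).2
    intro x hx
    exact hfix x (Finset.mem_filter.mpr ⟨Finset.mem_univ _, hx⟩)

theorem alt_of_nat (hact : PkgAct) {gs E : List ℕ} {m n : ℕ} (hn : n ≤ 8) (ht : Tab gs E m)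
    (h : chkNat E m n = true)
    (hX : (Finset.univ.filter (fun x : Fin 8 => (x : ℕ) < n)).card = n)
    (hm : 2 * m = n.factorial) : Nonempty (↥(Kc gs) ≃* alternatingGroup (Fin n)) := by
  obtain ⟨f, hf⟩ := hom_of_nat hact hn ht h
  exact Cfsg.Agent.Lib.Helper5.nonempty_mulEquiv_alternatingGroup_of_card f hf n
    (by rw [Fintype.card_coe, hX]) (by rw [ht.card, hm])

theorem sym_of_nat (hact : PkgAct) {gs E : List ℕ} {m n : ℕ} (hn : n ≤ 8) (ht : Tab gs E m)
    (h : chkNat E m n = true)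
    (hX : (Finset.univ.filter (fun x : Fin 8 => (x : ℕ) < n)).card = n)
    (hm : m = n.factorial) : Nonempty (↥(Kc gs) ≃* Equiv.Perm (Fin n)) := by
  obtain ⟨f, hf⟩ := hom_of_nat hact hn ht h
  exact Cfsg.Agent.Lib.Helper5.nonempty_mulEquiv_perm_of_card f hf n
    (by rw [Fintype.card_coe, hX]) (by rw [ht.card, hm])

/-- The certificate for the conjugation action on a list of involutions, for one element. -/
def chkCA1 (e : ℕ) (Xl : List ℕ) : Bool :=
  Xl.all (fun x => Xl.any (fun x' => Nat.beq (mulr e x) (mulr x' e))) &&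
    (Nat.beq e idc || Xl.any (fun x => !(Nat.beq (mulr e x) (mulr x e))))

/-- The certificate for the conjugation action on a list of involutions. -/
def chkCA (E : List ℕ) (m : ℕ) (Xl : List ℕ) : Bool :=
  Xl.all (fun x => Nat.blt x 16777216 && Nat.beq (mulr x x) idc) &&
    allB m (fun i => chkCA1 (accL E 24 i) Xl)

theorem chkCA_spec {gs E : List ℕ} {m : ℕ} {Xl : List ℕ} (ht : Tab gs E m)
    (h : chkCA E m Xl = true) :
    (∀ x ∈ Xl, Valid x) ∧
    ∀ k ∈ Kc gs, (∀ x ∈ Xl, ∃ x' ∈ Xl, k * pm x * k⁻¹ = pm x') ∧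
      ((∀ x ∈ Xl, k * pm x * k⁻¹ = pm x) → k = 1) := by
  unfold chkCA at h
  rw [Bool.and_eq_true] at h
  obtain ⟨h1, h2⟩ := h
  have hv : ∀ x ∈ Xl, Valid x := by
    intro x hx
    have h3 := List.all_eq_true.mp h1 x hx
    rw [Bool.and_eq_true] at h3
    have e : mulc x x = idc := Nat.eq_of_beq_eq_true h3.2
    exact valid_of_inv x x e e (by simpa using h3.1)
  refine ⟨hv, ?_⟩
  intro k hk
  obtain ⟨i, hi, hik⟩ := ht.complete k hk
  have hc := allB_spec h2 i hi
  simp only [chkCA1, Bool.and_eq_true] at hc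
  rw [hik] at hc
  obtain ⟨h3, h4⟩ := hc
  constructor
  · intro x hx
    obtain ⟨x', hx', e⟩ := List.any_eq_true.mp (List.all_eq_true.mp h3 x hx)
    have e1 := Nat.eq_of_beq_eq_true e
    rw [mulr_eq, mulr_eq] at e1
    have e2 := congrArg pm e1
    rw [pm_mulc (valid_enc k) (hv x hx), pm_mulc (hv x' hx') (valid_enc k), pm_enc] at e2
    refine ⟨x', hx', ?_⟩
    rw [e2]; group
  · intro hfix
    rw [Bool.or_eq_true] at h4
    rcases h4 with h4 | h4
    · apply enc_injective
      rw [Nat.eq_of_beq_eq_true h4, enc_one]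
    · obtain ⟨x, hx, e⟩ := List.any_eq_true.mp h4
      exfalso
      have e1 : k * pm x = pm x * k := by
        have e2 := hfix x hx
        calc k * pm x = k * pm x * k⁻¹ * k := by group
          _ = pm x * k := by rw [e2]
      have e3 := congrArg enc e1
      rw [enc_mul, enc_mul, enc_pm (hv x hx)] at e3
      rw [mulr_eq, mulr_eq, e3] at e
      simp at e

theorem hom_of_ca (hact : PkgAct) {gs E : List ℕ} {m : ℕ} {Xl : List ℕ} (ht : Tab gs E m)
    (h : chkCA E m Xl = true) :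
    ∃ f : ↥(Kc gs) →* Equiv.Perm ↥((Xl.map pm).toFinset), Function.Injective f := by
  obtain ⟨hv, hk⟩ := chkCA_spec ht h
  apply hact (Kc gs) Pm ((MulAut.toPerm Pm).comp MulAut.conj) ((Xl.map pm).toFinset)
  · intro k hkK σ hσ
    rw [List.mem_toFinset, List.mem_map] at hσ ⊢
    obtain ⟨x, hx, rfl⟩ := hσ
    obtain ⟨x', hx', e⟩ := (hk k hkK).1 x hx
    exact ⟨x', hx', e.symm⟩
  · intro k hkK hfix
    apply (hk k hkK).2
    intro x hx
    exact hfix (pm x) (List.mem_toFinset.mpr (List.mem_map.mpr ⟨x, hx, rfl⟩))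

theorem card_ca {Xl : List ℕ} (hv : ∀ x ∈ Xl, Valid x) (hnd : Xl.Nodup) :
    ((Xl.map pm).toFinset).card = Xl.length := by
  rw [List.toFinset_card_of_nodup, List.length_map]
  apply List.Nodup.map_on _ hnd
  intro x hx y hy hxy
  rw [← enc_pm (hv x hx), ← enc_pm (hv y hy), hxy]

theorem alt_of_ca (hact : PkgAct) {gs E : List ℕ} {m n : ℕ} {Xl : List ℕ} (ht : Tab gs E m)
    (h : chkCA E m Xl = true) (hnd : Xl.Nodup) (hl : Xl.length = n)
    (hm : 2 * m = n.factorial) : Nonempty (↥(Kc gs) ≃* alternatingGroup (Fin n)) := by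
  obtain ⟨f, hf⟩ := hom_of_ca hact ht h
  exact Cfsg.Agent.Lib.Helper5.nonempty_mulEquiv_alternatingGroup_of_card f hf n
    (by rw [Fintype.card_coe, card_ca (chkCA_spec ht h).1 hnd, hl]) (by rw [ht.card, hm])

theorem sym_of_ca (hact : PkgAct) {gs E : List ℕ} {m n : ℕ} {Xl : List ℕ} (ht : Tab gs E m)
    (h : chkCA E m Xl = true) (hnd : Xl.Nodup) (hl : Xl.length = n)
    (hm : m = n.factorial) : Nonempty (↥(Kc gs) ≃* Equiv.Perm (Fin n)) := by
  obtain ⟨f, hf⟩ := hom_of_ca hact ht h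
  exact Cfsg.Agent.Lib.Helper5.nonempty_mulEquiv_perm_of_card f hf n
    (by rw [Fintype.card_coe, card_ca (chkCA_spec ht h).1 hnd, hl]) (by rw [ht.card, hm])

/-- The product of the second components of a list of packed pairs. -/
def prodE (E : List ℕ) : List ℕ → ℕ
  | [] => idc
  | pr :: ps => mulr (accL E 24 (fld pr 12 12)) (prodE E ps)

/-- Each packed pair `(a, b)` satisfies `E[a] * x = E[b] * E[a]`. -/
def chkPairs (E : List ℕ) (m x : ℕ) : List ℕ → Bool
  | [] => true
  | pr :: ps =>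
    Nat.blt (fld pr 0 12) m && Nat.blt (fld pr 12 12) m &&
      Nat.beq (mulr (accL E 24 (fld pr 0 12)) x)
        (mulr (accL E 24 (fld pr 12 12)) (accL E 24 (fld pr 0 12))) &&
      chkPairs E m x ps

theorem chkPairs_spec {gs E : List ℕ} {m : ℕ} (ht : Tab gs E m) {x : ℕ} (vx : Valid x)
    (N : Subgroup Pm) (hx : pm x ∈ N) (hN : ∀ k ∈ Kc gs, ∀ n ∈ N, k * n * k⁻¹ ∈ N)
    (ps : List ℕ) (h : chkPairs E m x ps = true) :
    Valid (prodE E ps) ∧ pm (prodE E ps) ∈ N := by
  induction ps with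
  | nil => exact ⟨valid_idc, by rw [prodE, pm_idc]; exact one_mem _⟩
  | cons pr ps ih =>
    rw [chkPairs, Bool.and_eq_true, Bool.and_eq_true, Bool.and_eq_true] at h
    obtain ⟨⟨⟨h1, h2⟩, h3⟩, h4⟩ := h
    obtain ⟨va, ma⟩ := ht.valid _ (by simpa using h1 : fld pr 0 12 < m)
    obtain ⟨vb, _⟩ := ht.valid _ (by simpa using h2 : fld pr 12 12 < m)
    obtain ⟨v1, m1⟩ := ih h4
    have e := Nat.eq_of_beq_eq_true h3
    rw [mulr_eq, mulr_eq] at e
    have e2 := congrArg pm e
    rw [pm_mulc va vx, pm_mulc vb va] at e2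
    have e3 : pm (accL E 24 (fld pr 12 12))
        = pm (accL E 24 (fld pr 0 12)) * pm x * (pm (accL E 24 (fld pr 0 12)))⁻¹ := by
      rw [e2]; group
    rw [prodE, mulr_eq]
    refine ⟨valid_mulc vb v1, ?_⟩
    rw [pm_mulc vb v1, e3]
    exact mul_mem (hN _ ma _ hx) m1

/-- Each generator is a product of conjugates of `x`. -/
def chkGens (E : List ℕ) (m x : ℕ) : List ℕ → List (List ℕ) → Bool
  | [], _ => true
  | g :: gs, ps :: pss => chkPairs E m x ps && Nat.beq (prodE E ps) g && chkGens E m x gs pss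
  | _ :: _, [] => false

theorem chkGens_spec {gs E : List ℕ} {m : ℕ} (ht : Tab gs E m) {x : ℕ} (vx : Valid x)
    (N : Subgroup Pm) (hx : pm x ∈ N) (hN : ∀ k ∈ Kc gs, ∀ n ∈ N, k * n * k⁻¹ ∈ N)
    (gl : List ℕ) (pss : List (List ℕ)) (h : chkGens E m x gl pss = true) :
    ∀ g ∈ gl, pm g ∈ N := by
  induction gl generalizing pss with
  | nil => intro g hg; simp at hg
  | cons g gl ih =>
    cases pss with
    | nil => simp [chkGens] at h
    | cons ps pss =>
      rw [chkGens, Bool.and_eq_true, Bool.and_eq_true] at h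
      obtain ⟨⟨h1, h2⟩, h3⟩ := h
      intro y hy
      rcases List.mem_cons.mp hy with hy | hy
      · rw [hy, ← Nat.eq_of_beq_eq_true h2]
        exact (chkPairs_spec ht vx N hx hN ps h1).2
      · exact ih pss h3 y hy

/-- The simplicity certificate: for each nontrivial element, the generators are products of
its conjugates. -/
def chkSimp (gs E : List ℕ) (m : ℕ) : ℕ → List (List (List ℕ)) → Bool
  | i, [] => Nat.beq i m
  | i, r :: rs =>
    (Nat.beq (accL E 24 i) idc || chkGens E m (accL E 24 i) gs r) &&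
      chkSimp gs E m (Nat.add i 1) rs

theorem chkSimp_spec {gs E : List ℕ} {m : ℕ} (ht : Tab gs E m) (rs : List (List (List ℕ)))
    (i : ℕ) (h : chkSimp gs E m i rs = true) :
    ∀ i', i ≤ i' → i' < m → accL E 24 i' ≠ idc → ∀ N : Subgroup Pm, pm (accL E 24 i') ∈ N →
      (∀ k ∈ Kc gs, ∀ n ∈ N, k * n * k⁻¹ ∈ N) → ∀ g ∈ gs, pm g ∈ N := by
  induction rs generalizing i with
  | nil =>
    intro i' h1 h2
    have e : i = m := Nat.eq_of_beq_eq_true h
    omega
  | cons r rs ih =>
    rw [chkSimp, Bool.and_eq_true] at h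
    obtain ⟨h1, h2⟩ := h
    intro i' hi1 hi2 hne N hx hN
    rcases Nat.eq_or_lt_of_le hi1 with hi | hi
    · rw [← hi] at hne hx hi2
      rw [Bool.or_eq_true] at h1
      rcases h1 with h1 | h1
      · exact absurd (Nat.eq_of_beq_eq_true h1) hne
      · exact chkGens_spec ht (ht.valid i hi2).1 N hx hN gs r h1
    · exact ih (Nat.add i 1) h2 i' hi hi2 hne N hx hN

theorem simple_of_chk (hsimp : PkgSimp) {gs E : List ℕ} {m : ℕ} (hgs : ∀ g ∈ gs, Valid g)
    (ht : Tab gs E m) (SC : List (List (List ℕ))) (h : chkSimp gs E m 0 SC = true)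
    (hne : ∃ g ∈ gs, g ≠ idc) : IsSimpleGroup ↥(Kc gs) := by
  apply hsimp {σ | ∃ g ∈ gs, σ = pm g}
  · obtain ⟨g, hg, hne⟩ := hne
    refine ⟨pm g, ⟨g, hg, rfl⟩, ?_⟩
    intro h1
    apply hne
    rw [← enc_pm (hgs g hg), h1, enc_one]
  · rintro N ⟨x, hxN, hxK, hx1⟩ hN σ ⟨g, hg, rfl⟩
    obtain ⟨i, hi, hix⟩ := ht.complete x hxK
    have hne' : accL E 24 i ≠ idc := by
      intro h0; apply hx1; apply enc_injective; rw [← hix, h0, enc_one]
    exact chkSimp_spec ht SC 0 h i (Nat.zero_le _) hi hne' N (by rw [hix, pm_enc]; exact hxN)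
      hN g hg

theorem good_of_simple168 (hsimp : PkgSimp) (hl : PkgL32) {gs E : List ℕ}
    (hgs : ∀ g ∈ gs, Valid g) (ht : Tab gs E 168) (SC : List (List (List ℕ)))
    (h : chkSimp gs E 168 0 SC = true) (hne : ∃ g ∈ gs, g ≠ idc) : Good ↥(Kc gs) := by
  haveI := simple_of_chk hsimp hgs ht SC h hne
  right; right; right; right; right
  exact hl ↥(Kc gs) ht.card

end Cfsg.Agent.Lib.Helper98.A8
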