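import Mathlib
import Cfsg.Agent.Lib.Helper98.A8.Certs

set_option autoImplicit false

/-!
Assembly: from the two roots of the closure tree (a subgroup of the alternating group of degree
eight containing a given element of order five, or of order seven) to the statement on subgroups
of `GL₄(2)`.
-/

namespace Cfsg.Agent.Lib.Helper98.A8

open Equiv

/-- The packages used by the certificates of the closure tree. -/
structure Pkgs : Prop where
  inv : PkgInv
  odd : PkgOdd
  oddg : PkgOddG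
  simp : PkgSimp
  l32 : PkgL32
  act : PkgAct

theorem forall_nil {p : ℕ → Prop} : ∀ x ∈ ([] : List ℕ), p x := by
  intro x h
  simp at h

theorem forall_cons {p : ℕ → Prop} {a : ℕ} {l : List ℕ} (h1 : p a) (h2 : ∀ x ∈ l, p x) :
    ∀ x ∈ a :: l, p x :=
  List.forall_mem_cons.mpr ⟨h1, h2⟩

theorem orderOf_pm_of_pwr (g p : ℕ) (hp : p.Prime) (hg : Valid g) (h1 : pwr g p = idc)
    (h2 : g ≠ idc) : orderOf (pm g) = p := by
  have : Fact p.Prime := ⟨hp⟩
  apply orderOf_eq_prime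
  · rw [← (pwr_spec hg p).2, h1, pm_idc]
  · intro h0
    apply h2
    rw [← enc_pm hg, h0, enc_one]

theorem final_of_roots (hsolv : PkgSolv) (htrans : PkgTrans) (hburn : PkgBurn) (hcyc : PkgCyc)
    (g5 g7 : ℕ) (ho5 : orderOf (pm g5) = 5) (ho7 : orderOf (pm g7) = 7) (h5 : P [g5])
    (h7 : P [g7]) (H : Subgroup (GL (Fin 4) (ZMod 2))) (hH : H ≠ ⊥)
    (hO : Cfsg.pPrimeCore 2 ↥H = ⊥) (hO2 : Cfsg.pCore 2 ↥H = ⊥) :
    (∃ n : ℕ, 5 ≤ n ∧ n ≤ 8 ∧ Nonempty (↥H ≃* alternatingGroup (Fin n))) ∨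
    Nonempty (↥H ≃* Equiv.Perm (Fin 5)) ∨ Nonempty (↥H ≃* Equiv.Perm (Fin 6)) ∨
      Nonempty (↥H ≃* GL (Fin 3) (ZMod 2)) := by
  obtain ⟨ψ, hψ, hA⟩ := htrans
  have hle : H.map ψ ≤ alternatingGroup (Fin 8) := by
    rintro _ ⟨x, _, rfl⟩
    exact hA x
  have e : ↥H ≃* ↥(H.map ψ) := H.equivMapOfInjective ψ hψ
  have hgood : Good ↥(H.map ψ) := by
    by_cases d5 : 5 ∣ Nat.card ↥(H.map ψ)
    · obtain ⟨c, hc⟩ := hcyc (H.map ψ) 5 (Or.inl rfl) d5 (pm g5) ho5
      apply Good_cj (H.map ψ) c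
      apply h5 (cj (H.map ψ) c) (cj_le_alt _ c hle)
      intro g hg
      rw [List.mem_singleton] at hg
      rw [hg, mem_cj]
      exact hc
    · by_cases d7 : 7 ∣ Nat.card ↥(H.map ψ)
      · obtain ⟨c, hc⟩ := hcyc (H.map ψ) 7 (Or.inr rfl) d7 (pm g7) ho7
        apply Good_cj (H.map ψ) c
        apply h7 (cj (H.map ψ) c) (cj_le_alt _ c hle)
        intro g hg
        rw [List.mem_singleton] at hg
        rw [hg, mem_cj]
        exact hc
      · have hs : Group.IsSolvable ↥(H.map ψ) := hburn (H.map ψ) d5 d7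
        have hnt : Nontrivial ↥(H.map ψ) := by
          have h1 : Nontrivial ↥H := (Subgroup.nontrivial_iff_ne_bot H).mpr hH
          exact e.symm.toEquiv.nontrivial
        rcases hsolv ↥(H.map ψ) with h | h
        · exact Or.inl h
        · exact Or.inr (Or.inl h)
  have hg2 : Good ↥H := Good_congr e.symm hgood
  rcases hg2 with h | h | h | h | h | h
  · exact absurd hO2 h
  · exact absurd hO h
  · exact Or.inl h
  · exact Or.inr (Or.inl h)
  · exact Or.inr (Or.inr (Or.inl h))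
  · exact Or.inr (Or.inr (Or.inr h))

end Cfsg.Agent.Lib.Helper98.A8
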